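import Cfsg.Agent.OddCons48.WeakCentral
import Cfsg.Agent.OddStep.Interface

/-!
# A complement `Q` with `C_N(Q) = C_N(t)` for some `t ∈ Z(Q) ∩ [Q, Q]`

Then `Q` centralizes a Sylow 2-subgroup of `N`, `t` is weakly closed, and `[N, Q] ≤ O(N)`.
-/

set_option autoImplicit false

open scoped commutatorElement

namespace CfsgLib.OddCons48

open Cfsg

universe u

variable {G : Type u} [Group G]

/-- If the commutators of `d` with `Q` commute with `Q` and with each other, `d` fixes `[Q, Q]`. -/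
theorem fixes_commutator (d : G) (Q : Subgroup G)
    (h1 : ∀ q ∈ Q, ∀ a ∈ Q, Commute (d * q * d⁻¹ * q⁻¹) a)
    (h2 : ∀ q ∈ Q, ∀ a ∈ Q, Commute (d * q * d⁻¹ * q⁻¹) (d * a * d⁻¹ * a⁻¹)) {t : G} (ht : t ∈ ⁅Q, Q⁆) :
    d * t * d⁻¹ = t := by
  have hle : ⁅Q, Q⁆ ≤ Subgroup.centralizer ({d} : Set G) := by
    rw [Subgroup.commutator_le]
    intro a ha b hb
    rw [Subgroup.mem_centralizer_singleton_iff]
    set x := d * a * d⁻¹ * a⁻¹ with hx
    set y := d * b * d⁻¹ * b⁻¹ with hy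
    have ea : d * a * d⁻¹ = x * a := by rw [hx]; group
    have eb : d * b * d⁻¹ = y * b := by rw [hy]; group
    have hxa : Commute x a := h1 a ha a ha
    have hxb : Commute x b := h1 a ha b hb
    have hya : Commute y a := h1 b hb a ha
    have hyb : Commute y b := h1 b hb b hb
    have hxy : Commute x y := h2 a ha b hb
    have key : d * ⁅a, b⁆ * d⁻¹ = ⁅a, b⁆ := by
      calc d * ⁅a, b⁆ * d⁻¹ = ⁅d * a * d⁻¹, d * b * d⁻¹⁆ := by
            simp only [commutatorElement_def]; group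
        _ = ⁅x * a, y * b⁆ := by rw [ea, eb]
        _ = x * (a * y) * b * a⁻¹ * x⁻¹ * b⁻¹ * y⁻¹ := by
            simp only [commutatorElement_def]; group
        _ = x * y * a * b * a⁻¹ * (x⁻¹ * b⁻¹) * y⁻¹ := by rw [← hya.eq]; group
        _ = x * y * ⁅a, b⁆ * (x⁻¹ * y⁻¹) := by
            rw [hxb.inv_inv.eq]; simp only [commutatorElement_def]; group
        _ = x * y * ((x⁻¹ * y⁻¹) * ⁅a, b⁆) := by
            have hc : Commute (x⁻¹ * y⁻¹) ⁅a, b⁆ := by
              simp only [commutatorElement_def]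
              exact Commute.mul_left
                (((hxa.inv_left.mul_right hxb.inv_left).mul_right hxa.inv_inv).mul_right hxb.inv_inv)
                (((hya.inv_left.mul_right hyb.inv_left).mul_right hya.inv_inv).mul_right hyb.inv_inv)
            rw [mul_assoc, hc.eq]
        _ = ⁅a, b⁆ := by rw [hxy.inv_inv.eq]; group
    calc ⁅a, b⁆ * d = d * ⁅a, b⁆ * d⁻¹ * d := by rw [key]
      _ = d * ⁅a, b⁆ := by group
  have := Subgroup.mem_centralizer_singleton_iff.1 (hle ht)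
  rw [← this]; group

variable [Finite G]

theorem commutator_odd (N Q : Subgroup G) [hN : N.Normal] (hG : Q ⊔ N = ⊤) (hQ : IsPGroup 2 Q)
    (t : G) (htQ : t ∈ Q) (htZ : ∀ q ∈ Q, Commute q t) (htC : t ∈ ⁅Q, Q⁆)
    (hC : ∀ n ∈ N, Commute n t → ∀ q ∈ Q, Commute n q) : Odd (Nat.card ↥⁅N, Q⁆) := by
  obtain ⟨S, hQS⟩ := hQ.exists_le_sylow
  have hdec : ∀ g : G, ∃ n ∈ N, ∃ q ∈ Q, n * q = g := by
    intro g
    have : g ∈ N ⊔ Q := by rw [sup_comm, hG]; trivial
    exact Subgroup.mem_sup_of_normal_left.1 this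
  have hSdec : ∀ s ∈ (S : Subgroup G), ∃ n ∈ N, n ∈ (S : Subgroup G) ∧ ∃ q ∈ Q, n * q = s := by
    intro s hs
    obtain ⟨n, hn, q, hq, rfl⟩ := hdec s
    refine ⟨n, hn, ?_, q, hq, rfl⟩
    simpa using (S : Subgroup G).mul_mem hs ((S : Subgroup G).inv_mem (hQS hq))
  have hcommN : ∀ d ∈ N, ∀ q : G, d * q * d⁻¹ * q⁻¹ ∈ N := fun d hd q => by
    rw [show d * q * d⁻¹ * q⁻¹ = d * (q * d⁻¹ * q⁻¹) by group]
    exact N.mul_mem hd (hN.conj_mem _ (N.inv_mem hd) q)
  -- `Q` centralizes `T = S ⊓ N`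
  set T := (S : Subgroup G) ⊓ N with hT
  set C := T ⊓ Subgroup.centralizer (Q : Set G) with hCdef
  have hTC : T ≤ C := by
    by_contra hne
    obtain ⟨y, hy, hyC⟩ := SetLike.not_le_iff_exists.1 hne
    have hlt : C ⊔ Q < (S : Subgroup G) := by
      refine lt_of_le_of_ne (sup_le (inf_le_left.trans inf_le_left) hQS) fun he => hyC ?_
      have hy' : y ∈ C ⊔ Q := he ▸ hy.1
      have hnorm : Q ≤ Subgroup.normalizer (C : Set G) := fun q hq => by
        rw [Subgroup.mem_normalizer_iff]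
        intro x
        constructor
        · intro hx
          rw [Subgroup.mem_centralizer_iff.1 hx.2 q hq, mul_inv_cancel_right]; exact hx
        · intro hx
          have h := Subgroup.mem_centralizer_iff.1 hx.2 q hq
          have h' : x = q * x * q⁻¹ := mul_left_cancel (a := q) (by
            calc q * x = q * x * q⁻¹ * q := by group
              _ = q * (q * x * q⁻¹) := h.symm)
          rw [h']; exact hx
      rw [← SetLike.mem_coe, Subgroup.coe_mul_of_right_le_normalizer_left _ _ hnorm] at hy'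
      obtain ⟨c, hc, q, hq, rfl⟩ := Set.mem_mul.1 hy'
      have hqN : q ∈ N := by simpa using N.mul_mem (N.inv_mem hc.1.2) hy.2
      refine Subgroup.mul_mem _ hc ⟨⟨hQS hq, hqN⟩, Subgroup.mem_centralizer_iff.2 fun a ha => ?_⟩
      exact (hC q hqN (htZ q hq) a ha).eq.symm
    obtain ⟨w, hw, hwCQ⟩ := SetLike.exists_of_lt (Alperin.lt_inf_normalizer S.2 hlt)
    obtain ⟨d, hdN, hdS, q₀, hq₀, rfl⟩ := hSdec w hw.1
    have hdnorm : d ∈ Subgroup.normalizer ((C ⊔ Q : Subgroup G) : Set G) := by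
      have := (Subgroup.normalizer ((C ⊔ Q : Subgroup G) : Set G)).mul_mem hw.2
        (Subgroup.le_normalizer ((C ⊔ Q).inv_mem (Subgroup.mem_sup_right hq₀)))
      simpa using this
    have hconj : ∀ x ∈ C ⊔ Q, d * x * d⁻¹ ∈ C ⊔ Q := fun x hx =>
      (Subgroup.mem_normalizer_iff.1 hdnorm x).1 hx
    have hmemC : ∀ z ∈ C ⊔ Q, z ∈ N → z ∈ C := by
      intro z hz hzN
      have hzT : z ∈ T := ⟨sup_le (inf_le_left.trans inf_le_left) hQS hz, hzN⟩
      refine ⟨hzT, Subgroup.mem_centralizer_iff.2 fun a ha => (hC z hzN ?_ a ha).eq.symm⟩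
      have hle : C ⊔ Q ≤ Subgroup.centralizer ({t} : Set G) := sup_le
        (fun x hx => Subgroup.mem_centralizer_singleton_iff.2 (Subgroup.mem_centralizer_iff.1 hx.2 t htQ).symm)
        (fun x hx => Subgroup.mem_centralizer_singleton_iff.2 (htZ x hx).eq)
      exact Subgroup.mem_centralizer_singleton_iff.1 (hle hz)
    have hcC : ∀ q ∈ Q, d * q * d⁻¹ * q⁻¹ ∈ C := fun q hq => hmemC _
      ((C ⊔ Q).mul_mem (hconj q (Subgroup.mem_sup_right hq)) ((C ⊔ Q).inv_mem (Subgroup.mem_sup_right hq)))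
      (hcommN d hdN q)
    have hcom : ∀ q ∈ Q, ∀ x ∈ C, Commute (d * q * d⁻¹ * q⁻¹) x := by
      intro q hq x hx
      have hxq : ∀ a ∈ Q, ∀ y ∈ C, Commute a y := fun a ha y hy => Subgroup.mem_centralizer_iff.1 hy.2 a ha
      have hx' : d⁻¹ * x * d ∈ C := by
        refine hmemC _ ?_ (by simpa using hN.conj_mem x hx.1.2 d⁻¹)
        simpa using (Subgroup.mem_normalizer_iff.1 ((Subgroup.normalizer _).inv_mem hdnorm) x).1
          (Subgroup.mem_sup_left hx)
      have h1 : Commute (d * q * d⁻¹) x := by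
        have := (Commute.conj_iff d).2 (hxq q hq _ hx')
        rwa [show d * (d⁻¹ * x * d) * d⁻¹ = x by group] at this
      exact h1.mul_left (hxq q hq x hx).inv_left
    have hdt := fixes_commutator d Q
      (fun q hq a ha => (Subgroup.mem_centralizer_iff.1 (hcC q hq).2 a ha).symm)
      (fun q hq a ha => hcom q hq _ (hcC a ha)) htC
    refine hwCQ (Subgroup.mul_mem _ (Subgroup.mem_sup_left ⟨⟨hdS, hdN⟩, ?_⟩) (Subgroup.mem_sup_right hq₀))
    show d ∈ Subgroup.centralizer (Q : Set G)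
    rw [Subgroup.mem_centralizer_iff]
    intro a ha
    exact (hC d hdN (by
      show d * t = t * d
      conv_rhs => rw [← hdt]
      group) a ha).eq.symm
  have hTQ : ∀ x ∈ (S : Subgroup G), x ∈ N → ∀ q ∈ Q, Commute x q := fun x hxS hxN q hq =>
    (Subgroup.mem_centralizer_iff.1 (hTC ⟨hxS, hxN⟩).2 q hq).symm
  have htS : t ∈ (S : Subgroup G) := hQS htQ
  have hcen : ∀ y ∈ (S : Subgroup G), Commute y t := by
    intro y hy
    obtain ⟨n, hn, hnS, q, hq, rfl⟩ := hSdec y hy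
    exact (hTQ n hnS hn t htQ).mul_left (htZ q hq)
  -- `t` is weakly closed
  have hwc : ∀ g : G, g * t * g⁻¹ ∈ (S : Subgroup G) → g * t * g⁻¹ = t := by
    intro g hg
    obtain ⟨n, hn, q₀, hq₀, rfl⟩ := hdec g
    have e : n * q₀ * t * (n * q₀)⁻¹ = n * t * n⁻¹ := by
      calc _ = n * (q₀ * t) * q₀⁻¹ * n⁻¹ := by group
        _ = n * (t * q₀) * q₀⁻¹ * n⁻¹ := by rw [(htZ q₀ hq₀).eq]
        _ = n * t * n⁻¹ := by group
    rw [e] at hg ⊢
    set y := n * t * n⁻¹ with hy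
    have hu : y * t⁻¹ ∈ N ∧ y * t⁻¹ ∈ (S : Subgroup G) :=
      ⟨hcommN n hn t, (S : Subgroup G).mul_mem hg ((S : Subgroup G).inv_mem htS)⟩
    have hyq : ∀ q ∈ Q, Commute q y := by
      intro q hq
      have h1 := (hTQ _ hu.2 hu.1 q hq).symm.mul_right (htZ q hq)
      rwa [inv_mul_cancel_right] at h1
    set d := n⁻¹ with hd
    have hct : ∀ q ∈ Q, Commute (d * q * d⁻¹ * q⁻¹) t := by
      intro q hq
      have h1 : Commute (d * q * d⁻¹) t := by
        have := (Commute.conj_iff d).2 (hyq q hq)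
        rwa [show d * y * d⁻¹ = t by rw [hy, hd]; group] at this
      exact h1.mul_left (htZ q hq).inv_left
    have hcQ : ∀ q ∈ Q, ∀ a ∈ Q, Commute (d * q * d⁻¹ * q⁻¹) a := fun q hq a ha =>
      hC _ (hcommN d (N.inv_mem hn) q) (hct q hq) a ha
    have hcy : ∀ q ∈ Q, Commute (d * q * d⁻¹ * q⁻¹) (d * t * d⁻¹) := by
      intro q hq
      have h1 : Commute (d * q * d⁻¹) (d * t * d⁻¹) := (Commute.conj_iff d).2 (htZ q hq)
      have h2 : Commute q (d * t * d⁻¹) := by
        have h3 := (hcQ t htQ q hq).symm.mul_right (htZ q hq)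
        rwa [inv_mul_cancel_right] at h3
      exact h1.mul_left h2.inv_left
    have hcc : ∀ q ∈ Q, ∀ a ∈ Q, Commute (d * q * d⁻¹ * q⁻¹) (d * a * d⁻¹ * a⁻¹) := by
      intro q hq a ha
      set c := d * q * d⁻¹ * q⁻¹ with hc
      have hc' : n * c * n⁻¹ ∈ N := hN.conj_mem _ (hcommN d (N.inv_mem hn) q) n
      have h1 : Commute (n * c * n⁻¹) t := by
        have := (Commute.conj_iff n).2 (hcy q hq)
        rwa [show n * (d * t * d⁻¹) * n⁻¹ = t by rw [hd]; group] at this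
      have h2 := (Commute.conj_iff d).2 (hC _ hc' h1 a ha)
      rw [show d * (n * c * n⁻¹) * d⁻¹ = c by rw [hd]; group] at h2
      exact h2.mul_right (hcQ q hq a ha).inv_right
    have := fixes_commutator d Q hcQ hcc htC
    rw [hy]
    calc n * t * n⁻¹ = n * (d * t * d⁻¹) * n⁻¹ := by rw [this]
      _ = t := by rw [hd]; group
  have hz := inZStar_of_weaklyClosed S htS hcen hwc
  -- `N = O(G) C_N(Q)` modulo `O(G)`
  set K := pPrimeCore 2 G ⊓ N with hK
  have hKodd : ¬ 2 ∣ Nat.card K := fun h =>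
    Constrained.pPrimeCore_not_dvd (p := 2) (G := G) (h.trans (Subgroup.card_dvd_of_le inf_le_left))
  suffices hle : ⁅N, Q⁆ ≤ K by
    rw [← Nat.not_even_iff_odd, even_iff_two_dvd]
    exact fun h => hKodd (h.trans (Subgroup.card_dvd_of_le hle))
  haveI : K.Normal := inferInstanceAs (pPrimeCore 2 G ⊓ N).Normal
  rw [Subgroup.commutator_le]
  intro n hn q hq
  -- some element of `K n` centralizes `t`
  set R := Subgroup.zpowers t with hR
  have hnt : n * t * n⁻¹ ∈ R ⊔ K := by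
    have := (R ⊔ K).mul_mem (Subgroup.mem_sup_right (⟨hz n, hcommN n hn t⟩ : n * t * n⁻¹ * t⁻¹ ∈ K))
      (Subgroup.mem_sup_left (Subgroup.mem_zpowers t))
    rwa [inv_mul_cancel_right] at this
  have hRp : IsPGroup 2 R := hQ.to_le (Subgroup.zpowers_le.2 htQ)
  have hidx : ¬ 2 ∣ R.relIndex (R ⊔ K) := by
    intro h2
    apply hKodd
    have h := Subgroup.relIndex_mul_relIndex ⊥ R (R ⊔ K) bot_le le_sup_left
    have h' := Subgroup.relIndex_mul_relIndex ⊥ K (R ⊔ K) bot_le le_sup_right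
    rw [← h, Subgroup.relIndex_sup_right, Subgroup.relIndex_bot_left, Subgroup.relIndex_bot_left,
      ← Subgroup.inf_relIndex_right, inf_comm,
      Constrained.disjoint_of_isPGroup_of_not_dvd hRp hKodd, Subgroup.relIndex_bot_left,
      mul_comm (Nat.card K)] at h'
    rwa [Nat.eq_of_mul_eq_mul_left Nat.card_pos h'.symm] at h2
  obtain ⟨l, hl, hle⟩ := Alperin.exists_mem_conj_map_le (le_sup_left : R ≤ R ⊔ K) hRp hidx
    (Subgroup.zpowers_le.2 hnt) (A := Subgroup.zpowers (n * t * n⁻¹))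
    (by
      rw [show Subgroup.zpowers (n * t * n⁻¹) = R.map (MulAut.conj n).toMonoidHom from by
        rw [hR, MonoidHom.map_zpowers]; rfl]
      exact hRp.map _)
  obtain ⟨r, hr, k, hk, rfl⟩ := Subgroup.mem_sup_of_normal_right.1 hl
  have h4 := hle (Alperin.conj_mem_conj_map (r * k) (Subgroup.mem_zpowers (n * t * n⁻¹)))
  have h5 : (k * n) * t * (k * n)⁻¹ ∈ R := by
    have := R.mul_mem (R.mul_mem (R.inv_mem hr) h4) hr
    rwa [show r⁻¹ * (r * k * (n * t * n⁻¹) * (r * k)⁻¹) * r = k * n * t * (k * n)⁻¹ by group] at this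
  have hfix : Commute (k * n) t := by
    have h6 := hwc (k * n) (hQS (Subgroup.zpowers_le.2 htQ h5))
    exact mul_inv_eq_iff_eq_mul.1 h6
  have hkq := hC (k * n) (N.mul_mem hk.2 hn) hfix q hq
  have h7 : k * (n * q * n⁻¹ * q⁻¹) * (q * k⁻¹ * q⁻¹) = 1 := by
    calc _ = (k * n) * q * (k * n)⁻¹ * q⁻¹ := by group
      _ = 1 := by rw [hkq.eq]; group
  have h8 : n * q * n⁻¹ * q⁻¹ = k⁻¹ * (q * k * q⁻¹) := by
    calc n * q * n⁻¹ * q⁻¹ = k⁻¹ * (k * (n * q * n⁻¹ * q⁻¹) * (q * k⁻¹ * q⁻¹)) * (q * k * q⁻¹) := by group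
      _ = _ := by rw [h7]; group
  rw [commutatorElement_def, h8]
  exact K.mul_mem (K.inv_mem hk) (Subgroup.Normal.conj_mem inferInstance k hk q)

/-- `[N, Q]` is solvable of odd order, given the odd order theorem. -/
theorem solvable_commutator (hFT : CfsgLib.OddStep.P0205.{u}) (N Q : Subgroup G) [N.Normal]
    (hG : Q ⊔ N = ⊤) (hQ : IsPGroup 2 ↥Q) (t : G)
    (htZ : t ∈ Q ⊓ Subgroup.centralizer (Q : Set G)) (htQ : t ∈ ⁅Q, Q⁆)
    (hC : N ⊓ Subgroup.centralizer (Q : Set G) = N ⊓ Subgroup.centralizer ({t} : Set G)) :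
    Group.IsSolvable ↥⁅N, Q⁆ ∧ Odd (Nat.card ↥⁅N, Q⁆) := by
  have h := commutator_odd N Q hG hQ t htZ.1
    (fun q hq => Subgroup.mem_centralizer_iff.1 htZ.2 q hq) htQ
    (fun n hn hnt q hq => by
      have : n ∈ N ⊓ Subgroup.centralizer (Q : Set G) := by
        rw [hC]; exact ⟨hn, Subgroup.mem_centralizer_singleton_iff.2 hnt.eq⟩
      exact (Subgroup.mem_centralizer_iff.1 this.2 q hq).symm)
  exact ⟨hFT h, h⟩

end CfsgLib.OddCons48
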